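import Mathlib
import Cfsg.Agent.Helper5.NX0

set_option autoImplicit false

namespace Cfsg.Agent.Helper9.S4692s

open Cfsg Cfsg.Agent.Helper5 Cfsg.Agent.Helper22 Cfsg.Agent.Helper24

universe u

/-- conjugation by `x` (normalizing `C` and `N` normal) as a permutation of `N.subgroupOf C`. -/
def cjY {G : Type u} [Group G] (N : Subgroup G) [N.Normal] (C : Subgroup G) (x : G)
    (h1 : ∀ g ∈ C, x * g * x⁻¹ ∈ C) (h2 : ∀ g ∈ C, x⁻¹ * g * x ∈ C) :
    ↥(N.subgroupOf C) ≃ ↥(N.subgroupOf C) where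
  toFun y := ⟨⟨x * ((y : ↥C) : G) * x⁻¹, h1 _ (y : ↥C).2⟩,
    Subgroup.mem_subgroupOf.mpr
      (Subgroup.Normal.conj_mem inferInstance _ (Subgroup.mem_subgroupOf.mp y.2) x)⟩
  invFun y := ⟨⟨x⁻¹ * ((y : ↥C) : G) * x, h2 _ (y : ↥C).2⟩,
    Subgroup.mem_subgroupOf.mpr
      (Subgroup.Normal.conj_mem' inferInstance _ (Subgroup.mem_subgroupOf.mp y.2) x)⟩
  left_inv y := Subtype.ext (Subtype.ext (by simp [mul_assoc]))
  right_inv y := Subtype.ext (Subtype.ext (by simp [mul_assoc]))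

theorem cjY_coe {G : Type u} [Group G] (N : Subgroup G) [N.Normal] (C : Subgroup G) (x : G)
    (h1 : ∀ g ∈ C, x * g * x⁻¹ ∈ C) (h2 : ∀ g ∈ C, x⁻¹ * g * x ∈ C) (y : ↥(N.subgroupOf C)) :
    (((cjY N C x h1 h2 y : ↥(N.subgroupOf C)) : ↥C) : G) = x * ((y : ↥C) : G) * x⁻¹ := rfl

theorem conj_over {G : Type u} [Group G] [Fintype G] (N : Subgroup G) [N.Normal] (R : Subgroup ↥N) [Fintype ↥(N.subgroupOf (Subgroup.centralizer ((R.map N.subtype : Subgroup G) : Set G)))] (x : G) (hx : x ∈ Subgroup.normalizer ((R.map N.subtype : Subgroup G) : Set G)) (ξ ξ' : IrrCharacter ↥(Subgroup.centralizer ((R.map N.subtype : Subgroup G) : Set G))) (hξ : IsConjCharOf (Subgroup.centralizer ((R.map N.subtype : Subgroup G) : Set G)) x ξ.1 ξ'.1) (θ θ' : IrrCharacter ↥(Subgroup.centralizer (R : Set ↥N))) (hθ : ∀ k k' : ↥(Subgroup.centralizer (R : Set ↥N)), ((k' : ↥N) : G) = x * ((k : ↥N) : G) * x⁻¹ → θ'.1 k' = θ.1 k) (hcon : classInner (fun y : ↥(N.subgroupOf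 (Subgroup.centralizer ((R.map N.subtype : Subgroup G) : Set G))) => ξ.1 y) (nx_up N R θ).1 ≠ 0) : classInner (fun y : ↥(N.subgroupOf (Subgroup.centralizer ((R.map N.subtype : Subgroup G) : Set G))) => ξ'.1 y) (nx_up N R θ').1 ≠ 0 := by
  classical
  have hxC := pf_norm_cent (R.map N.subtype) x hx
  have h1 : ∀ g ∈ Subgroup.centralizer ((R.map N.subtype : Subgroup G) : Set G),
      x * g * x⁻¹ ∈ Subgroup.centralizer ((R.map N.subtype : Subgroup G) : Set G) := fun g hg =>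
    (Subgroup.mem_normalizer_iff.mp hxC g).mp hg
  have h2 : ∀ g ∈ Subgroup.centralizer ((R.map N.subtype : Subgroup G) : Set G),
      x⁻¹ * g * x ∈ Subgroup.centralizer ((R.map N.subtype : Subgroup G) : Set G) := fun g hg => by
    have h := (Subgroup.mem_normalizer_iff.mp (Subgroup.inv_mem _ hxC) g).mp hg
    rwa [inv_inv] at h
  have key : classInner (fun y : ↥(N.subgroupOf (Subgroup.centralizer
        ((R.map N.subtype : Subgroup G) : Set G))) => ξ'.1 y) (nx_up N R θ').1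
      = classInner (fun y : ↥(N.subgroupOf (Subgroup.centralizer
        ((R.map N.subtype : Subgroup G) : Set G))) => ξ.1 y) (nx_up N R θ).1 := by
    rw [classInner_def', classInner_def']
    congr 1
    rw [← Equiv.sum_comp (cjY N _ x h1 h2)]
    apply Finset.sum_congr rfl
    intro y _
    have a1 : ξ'.1 ((cjY N _ x h1 h2 y : ↥(N.subgroupOf (Subgroup.centralizer
        ((R.map N.subtype : Subgroup G) : Set G)))) :
          ↥(Subgroup.centralizer ((R.map N.subtype : Subgroup G) : Set G)))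
        = ξ.1 (y : ↥(Subgroup.centralizer ((R.map N.subtype : Subgroup G) : Set G))) :=
      hξ _ _ rfl
    have a2 : (nx_up N R θ').1 (cjY N _ x h1 h2 y) = (nx_up N R θ).1 y := by
      rw [nx_up_apply, nx_up_apply]
      exact hθ (nx_phi N R y) (nx_phi N R (cjY N _ x h1 h2 y)) rfl
    show ξ'.1 _ * starRingEnd ℂ ((nx_up N R θ').1 (cjY N _ x h1 h2 y)) = _
    rw [a1, a2]
  rw [key]
  exact hcon

end Cfsg.Agent.Helper9.S4692s
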